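import Cfsg.Agent.H389.R.Pivot

/-!
# S3530: the configuration with two Ree groups (helper389)
-/

set_option autoImplicit false

namespace Cfsg.Agent.H389.RSq

open Subgroup

universe u

/-- `K × L ⊴ Y` of odd index with trivial centralizer, `K ≅ L ≅ ²G₂(3^(2m+1))` -/
structure RR (m : ℕ) (Y : Type u) [Group Y] (K L : Subgroup Y) : Prop where
  normalK : K.Normal
  normalL : L.Normal
  reeK : IsRee m K
  reeL : IsRee m L
  comm : K ≤ centralizer (L : Set Y)
  inf : K ⊓ L = ⊥
  cent : centralizer ((K ⊔ L : Subgroup Y) : Set Y) = ⊥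
  index : Odd (K ⊔ L).index

theorem RR.symm {m : ℕ} {Y : Type u} [Group Y] {K L : Subgroup Y} (h : RR m Y K L) : RR m Y L K where
  normalK := h.normalL
  normalL := h.normalK
  reeK := h.reeL
  reeL := h.reeK
  comm := le_centralizer_iff.mp h.comm
  inf := by rw [inf_comm]; exact h.inf
  cent := by rw [sup_comm]; exact h.cent
  index := by rw [sup_comm]; exact h.index

end Cfsg.Agent.H389.RSq
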